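import Cfsg.Agent.H4.J3A
import Cfsg.Agent.H9.KC6

/-! Involution counts from an element of odd prime order with automizer of order two. -/

set_option autoImplicit false
set_option linter.unusedSectionVars false

namespace Cfsg.Agent.L0.KK

open Cfsg Cfsg.Agent.H1 Cfsg.Agent.H3.NQ Cfsg.Agent.H4.J3 Cfsg.Agent.H9.KC Subgroup Finset Matrix
open scoped ComplexConjugate Classical

section
variable {C G : Type*} [Group C] [Fintype C] [Group G] [Fintype G]
  {φ : C →* G} {l : C →* ℂ} {s : G} {σ : C → C} (T : TI φ l s σ)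
include T

theorem pairs_eq' {t : G} (tt : t * t = 1) (hi : ∀ u v : C, u * u = 1 → v * v = 1 → l (u * v) = 1)
    {w : C} (hw : l w ≠ 1) (hJ : ∀ c, IsConj (s * φ c) (s * φ (c * w))) :
    (Nat.card C : ℂ) * pairs t (indHom φ fun c => 1 - l c) =
      Nat.card G * (univ.filter fun c => IsConj t (s * φ c)).card ^ 2 := by
  have sq : ∀ u, IsConj t u → u * u = 1 := fun u hu => by
    obtain ⟨g, rfl⟩ := isConj_iff.1 hu
    rw [_root_.conj_mul, tt, mul_one, mul_inv_cancel]
  have ci : ∀ u, classInd ℂ t u⁻¹ = classInd ℂ t u := fun u => by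
    have : IsConj t u⁻¹ ↔ IsConj t u := ⟨fun h => by
      have := sq _ h
      rwa [← inv_eq_of_mul_eq_one_left this, inv_inv] at h, fun h => by rwa [inv_eq_of_mul_eq_one_left (sq _ h)]⟩
    simp only [classInd, this]
  have hf : IsClassFunction G fun g => ∑ v, classInd ℂ t v * classInd ℂ t (g * v⁻¹) := fun g x => by
    beta_reduce
    rw [← Equiv.sum_comp (MulAut.conj x).toEquiv]
    refine sum_congr rfl fun v _ => ?_
    have e := isCF_classInd ℂ t
    simp only [MulEquiv.toEquiv_eq_coe, EquivLike.coe_coe, MulAut.conj_apply]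
    rw [show x * g * x⁻¹ * (x * v * x⁻¹)⁻¹ = x * (g * v⁻¹) * x⁻¹ by group, e, e]
  have h1 : pairs t (indHom φ fun c => 1 - l c) = ∑ g, indHom φ (fun c => 1 - l c) g *
      ∑ v, classInd ℂ t v * classInd ℂ t (g * v⁻¹) := by
    simp only [pairs, mul_sum]
    rw [sum_comm, sum_comm]
    conv_rhs => rw [sum_comm]
    refine sum_congr rfl fun v _ => Fintype.sum_equiv (Equiv.mulRight v) _ _ fun u => ?_
    simp only [Equiv.coe_mulRight, mul_inv_cancel_right]
    ring
  rw [h1, sum_indHom_mul _ _ hf]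
  congr 1
  have h2 : ∀ h : C, (1 - l h) * ∑ v, classInd ℂ t v * classInd ℂ t (φ h * v⁻¹) =
      ∑ b, (1 - l h) * (classInd ℂ t (s * φ b) * classInd ℂ t (s * φ (b * h⁻¹))) := fun h => by
    by_cases h1 : l h = 1
    · simp [h1]
    rw [← mul_sum]
    congr 1
    symm
    refine sum_of_injOn (fun b => s * φ b) (fun a _ b _ e => T.inj (mul_left_cancel e))
      (fun _ _ => mem_univ _) (fun v _ hv => ?_) fun b _ => ?_
    · by_contra hn
      obtain ⟨n1, n2⟩ := mul_ne_zero_iff.1 hn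
      simp only [classInd, ne_eq, ite_eq_right_iff, one_ne_zero, imp_false, not_not] at n1 n2
      replace n1 := sq _ n1
      replace n2 := sq _ n2
      have vi : v⁻¹ = v := inv_eq_of_mul_eq_one_left n1
      obtain ⟨a, rfl | rfl⟩ := T.ti h h⁻¹ v h1 (by
        have := n2
        rw [vi] at this
        rw [map_inv, eq_inv_iff_mul_eq_one, vi]
        calc _ = v * (φ h * v * (φ h * v)) * v⁻¹ := by group
          _ = 1 := by rw [this, mul_one, mul_inv_cancel])
      · rw [← map_inv, ← map_mul, ← map_mul, map_eq_one_iff φ T.inj] at n2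
        rw [← map_mul, map_eq_one_iff φ T.inj] at n1
        exact h1 (by simpa using hi _ _ n2 n1)
      · exact hv ⟨a, mem_univ _, rfl⟩
    · rw [← ci (φ h * _)]
      simp [mul_assoc]
  simp only [h2]
  rw [sum_comm]
  have h3 : ∀ b : C, ∑ h, (1 - l h) * (classInd ℂ t (s * φ b) * classInd ℂ t (s * φ (b * h⁻¹))) =
      ∑ a, (classInd ℂ t (s * φ b) * classInd ℂ t (s * φ a) -
        classInd ℂ t (s * φ b) * l b * (classInd ℂ t (s * φ a) * l a⁻¹)) := fun b =>
    Fintype.sum_equiv ((Equiv.inv C).trans (Equiv.mulLeft b)) _ _ fun h => by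
      have := T.l_ne b
      simp only [Equiv.trans_apply, Equiv.inv_apply, Equiv.coe_mulLeft, _root_.mul_inv_rev, inv_inv,
        map_mul l, map_inv l]
      field_simp
  simp only [h3, sum_sub_distrib, ← mul_sum, ← sum_mul]
  rw [sum_hom l hw _ fun c => by
    have : IsConj t (s * φ (c * w)) ↔ IsConj t (s * φ c) := ⟨fun h => h.trans (hJ c).symm, fun h => h.trans (hJ c)⟩
    simp only [classInd, this]]
  simp [-isConj_iff, classInd, pow_two]

theorem formula' [IsSimpleGroup G] (hG : ¬ IsMulCommutative G) (hi : ∀ u v : C, u * u = 1 → v * v = 1 → l (u * v) = 1)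
    {w : C} (hw : l w ^ 2 ≠ 1) (hJ : ∀ c, IsConj (s * φ c) (s * φ (c * w))) :
    ∃ d : ℕ, 2 ≤ d ∧ d ∣ Nat.card G ∧ d + 1 ∣ Nat.card G ∧ ∀ t : G, orderOf t = 2 → ∃ a : ℤ, |a| < d ∧
      1 + a ^ 2 + (a + 1) ^ 2 ≤ cz t ∧ (Nat.card C : ℤ) * Nat.card G * (d - a) ^ 2 =
        (cz t * (univ.filter fun c => IsConj t (s * φ c)).card) ^ 2 * (d * (d + 1)) := by
  obtain ⟨χ, ψ, h1, h2, h3, h4, h5⟩ := T.main hw
  have n1 : χ.1 ≠ fun _ => 1 := fun e => h1 (Subtype.ext e)
  refine ⟨dg χ, ?_, deg_dvd χ.2 (dg_eq χ), h4 ▸ deg_dvd ψ.2 (dg_eq ψ), fun t ht => ?_⟩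
  · obtain ⟨g, hg⟩ := exists_ne (1 : G)
    by_contra h
    have e : dg χ = 1 := by have := dg_pos χ; omega
    refine H4.K3.normSq_ne hG χ.2 n1 hg ?_
    obtain ⟨m, hm⟩ := IsCharacter.exists_multiset_hom (IsIrrCharacter.isCharacter χ.2) g
    have c1 := hm 1
    have c2 := hm ⟨g, mem_zpowers g⟩
    simp only [map_one, Multiset.map_const', Multiset.sum_replicate, nsmul_eq_mul, mul_one, OneMemClass.coe_one,
      dg_eq, e, Nat.cast_one] at c1
    obtain ⟨f, rfl⟩ := Multiset.card_eq_one.1 (show Multiset.card m = 1 by exact_mod_cast c1.symm)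
    simp only [Multiset.map_singleton, Multiset.sum_singleton] at c2
    rw [c2, dg_eq, e, ← hom_inv_eq_conj, ← map_mul]
    simp
  have tt := sq_of_ord ht
  have t1 : t ≠ 1 := by rintro rfl; simp at ht
  obtain ⟨x, hx⟩ := inv_val (IsIrrCharacter.isCharacter χ.2) tt
  obtain ⟨y, hy⟩ := inv_val (IsIrrCharacter.isCharacter ψ.2) tt
  have v0 := h5 t
  rw [indHom_eq_zero _ _ _ fun c hc => by
    obtain ⟨g, hg⟩ := isConj_iff.1 hc
    have : c * c = 1 := T.inj (by rw [map_mul, ← hg, _root_.conj_mul, tt]; simp)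
    have := hi c 1 this (mul_one 1)
    rw [mul_one] at this
    simp [this], hx, hy] at v0
  obtain rfl : y = x + 1 := by
    have : (y : ℂ) = x + 1 := by linear_combination v0
    exact_mod_cast this
  refine ⟨x, H4.K3.abs_lt_deg hG χ.2 n1 t1 (dg_eq χ) hx, ?_, ?_⟩
  · have a1 := sum_irr_mul_conj t t
    simp only [IsConj.refl, if_true, Complex.mul_conj] at a1
    have a2 : ∑ χ : IrrCharacter G, Complex.normSq (χ.1 t) = Nat.card (centralizer ({t} : Set G)) := by
      exact_mod_cast a1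
    have a3 := sum_le_univ_sum_of_nonneg (s := {tr1 G, χ, ψ})
      fun χ : IrrCharacter G => Complex.normSq_nonneg (χ.1 t)
    rw [a2, sum_insert (by simp [h1.symm, h2.symm]), sum_pair h3, hx, hy] at a3
    simp only [tr1, map_one, Complex.normSq_intCast] at a3
    have : (1 + x ^ 2 + ((x + 1 : ℤ) : ℝ) ^ 2 : ℝ) ≤ Nat.card (centralizer ({t} : Set G)) := by nlinarith
    exact_mod_cast this
  · have a1 := pairs_eq' T tt hi (w := w) (fun e => hw (by simp [e])) hJ
    have a2 := pairs_sum t univ ![1, 1, -1] ![(tr1 G).1, χ.1, ψ.1]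
    simp only [Fin.sum_univ_three, cons_val_zero, cons_val_one, Matrix.cons_val, pairs_irr (tr1 G).2,
      pairs_irr χ.2, pairs_irr ψ.2, hx, hy, dg_eq χ, dg_eq ψ, h4] at a2
    rw [show (indHom φ fun c => 1 - l c) = fun g => 1 * (tr1 G).1 g + 1 * χ.1 g + -1 * ψ.1 g from
      funext fun g => (h5 g).trans (by simp [tr1, sub_eq_add_neg]), a2] at a1
    have a3 : ((centralizer ({t} : Set G)).index : ℂ) * Nat.card (centralizer ({t} : Set G)) =
      Nat.card G := by exact_mod_cast index_mul_card _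
    have d0 : (dg χ : ℂ) ≠ 0 := by exact_mod_cast (dg_pos χ).ne'
    have d1 : (dg χ : ℂ) + 1 ≠ 0 := by exact_mod_cast Nat.succ_ne_zero (dg χ)
    have g0 : (Nat.card G : ℂ) ≠ 0 := card_ne_zero'
    simp only [tr1] at a1
    push_cast at a1
    field_simp at a1
    have : (Nat.card C : ℂ) * Nat.card G * (dg χ - x) ^ 2 =
        (Nat.card (centralizer ({t} : Set G)) * (univ.filter fun c => IsConj t (s * φ c)).card) ^ 2 *
          (dg χ * (dg χ + 1)) := by
      refine mul_left_cancel₀ g0 ?_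
      linear_combination (Nat.card (centralizer ({t} : Set G)) : ℂ) ^ 2 * a1 -
        Nat.card C * (dg χ - x) ^ 2 *
          ((centralizer ({t} : Set G)).index * Nat.card (centralizer ({t} : Set G)) + Nat.card G) * a3
    exact_mod_cast this

end

variable {G : Type*} [Group G] [Finite G]

theorem gen_of_prime {x y : G} (hp : (orderOf x).Prime) (hy : y ∈ zpowers x) (y1 : y ≠ 1) : zpowers y = zpowers x :=
  eq_of_le_of_card_ge (zpowers_le.2 hy) (by
    rw [Nat.card_zpowers, Nat.card_zpowers, ((Nat.dvd_prime hp).1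
      (orderOf_dvd_of_mem_zpowers hy)).resolve_left (by simpa using y1)])

/-- the exact involution formula -/
theorem dih_exact [IsSimpleGroup G] (hG : ¬ IsMulCommutative G) {x : G} {p m : ℕ} (hp : p.Prime) (p2 : p ≠ 2)
    (hx : orderOf x = p) (hm : m = 1 ∨ m.Prime) (hpm : m ≠ p) (hc : cz x = p * m) (he : ez x = 2) :
    ∃ d : ℕ, 2 ≤ d ∧ d ∣ Nat.card G ∧ d + 1 ∣ Nat.card G ∧ ∀ t : G, orderOf t = 2 →
      (∃ u, IsConj t u ∧ u * x * u⁻¹ = x⁻¹) ∧ ∃ (a : ℤ) (k : ℕ), |a| < d ∧ 1 + a ^ 2 + (a + 1) ^ 2 ≤ cz t ∧ 0 < k ∧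
        k ≤ m ∧ (m : ℤ) * Nat.card G * (d - a) ^ 2 = p * (cz t * k) ^ 2 * (d * (d + 1)) := by
  have := Fintype.ofFinite G
  have od : Odd (orderOf x) := hx ▸ hp.odd_of_ne_two p2
  have xC : x ∈ centralizer ({x} : Set G) := mem_centralizer_singleton_iff.2 rfl
  have zC : zpowers x ≤ centralizer ({x} : Set G) := zpowers_le.2 xC
  have cm : ∀ c ∈ centralizer ({x} : Set G), ∀ y ∈ zpowers x, y * c = c * y := fun c hc y hy => by
    obtain ⟨k, rfl⟩ := mem_zpowers_iff.1 hy
    exact (Commute.zpow_right (mem_centralizer_singleton_iff.1 hc) k).symm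
  let X : Subgroup (centralizer ({x} : Set G)) := (zpowers x).subgroupOf _
  have X1 : X ≤ center _ := fun y hy => mem_center_iff.2 fun c => Subtype.ext (cm c.1 c.2 y.1 hy).symm
  have : X.Normal := ⟨fun y hy g => by rwa [mem_center_iff.1 (X1 hy) g, mul_inv_cancel_right]⟩
  have X2 : X.index = m := by
    have := X.index_mul_card
    rw [Nat.card_congr (subgroupOfEquivOfLe zC).toEquiv, Nat.card_zpowers, hx, show Nat.card _ = _ from hc,
      mul_comm p] at this
    exact Nat.eq_of_mul_eq_mul_right hp.pos this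
  have cy : IsCyclic (centralizer ({x} : Set G) ⧸ X) := by
    rcases hm with rfl | hm
    · have := (Nat.card_eq_one_iff_unique.1 (show Nat.card (_ ⧸ X) = 1 from X2)).1
      infer_instance
    · have := Fact.mk hm
      exact isCyclic_of_prime_card (p := m) X2
  have com := (QuotientGroup.mk' X).isMulCommutative_of_isCyclic_of_ker_le_center (by simpa using X1)
  have pw : ∀ c : centralizer ({x} : Set G), c.1 ^ m ∈ zpowers x := fun c => X2 ▸ X.pow_index_mem c
  let _ : CommGroup (centralizer ({x} : Set G)) := ⟨com.is_comm.comm⟩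
  have xm : (⟨x, xC⟩ : centralizer ({x} : Set G)) ^ m ≠ 1 := fun e => by
    have h1 : p ∣ m := hx ▸ orderOf_dvd_of_pow_eq_one (congrArg Subtype.val e)
    rcases hm with rfl | hm
    · exact hp.one_lt.ne' (Nat.dvd_one.1 h1)
    · exact hpm ((Nat.prime_dvd_prime_iff_eq hp hm).1 h1).symm
  have : NeZero (Monoid.exponent (centralizer ({x} : Set G))) := ⟨Monoid.exponent_ne_zero_of_finite⟩
  obtain ⟨lam, hl⟩ := CommGroup.exists_apply_ne_one_of_hasEnoughRootsOfUnity _ ℂ xm
  let l : centralizer ({x} : Set G) →* ℂ := (Units.coeHom ℂ).comp (lam.comp (powMonoidHom m))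
  have l1 : ∀ c, l c = lam (c ^ m) := fun c => rfl
  have l2 : ∀ c : centralizer ({x} : Set G), c.1 ^ m = 1 → l c = 1 := fun c h => by
    rw [l1, show c ^ m = 1 from Subtype.ext h]; simp
  have nn : nz x = 2 * cz x := by rw [← cz_mul_ez, he, mul_comm]
  obtain ⟨s, s1, s2⟩ : ∃ s ∈ normalizer (zpowers x : Set G), s ∉ centralizer ({x} : Set G) := by
    by_contra! h
    have := card_le_of_le (show normalizer (zpowers x : Set G) ≤ _ from h)
    have := cz_pos x
    simp only [nz, cz] at *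
    omega
  have i2 := fun a b => idx2 (cent_le_norm x) nn (a := a) (b := b)
  have sx : s * x * s⁻¹ = x⁻¹ := by
    have y1 : s * x * s⁻¹ ∈ zpowers x := (s1 x).1 (mem_zpowers x)
    have y2 : s * s * x = x * (s * s) := mem_centralizer_singleton_iff.1 ((i2 s s s1 s1).2 Iff.rfl)
    by_contra hn
    have w1 : x * (s * x * s⁻¹) ≠ 1 := fun e => hn (eq_inv_of_mul_eq_one_right e)
    have w2 := gen_of_prime (hx ▸ hp) (mul_mem (mem_zpowers x) y1) w1
    have w3 : zpowers (x * (s * x * s⁻¹)) ≤ centralizer {s} := zpowers_le.2 (mem_centralizer_singleton_iff.2 (by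
      rw [← cm x xC _ y1]
      calc s * x * s⁻¹ * x * s = s * (x * (s * s)⁻¹ * (s * x * s)) := by group
        _ = s * ((s * s)⁻¹ * x * (s * x * s)) := by
          congr 2
          rw [mul_inv_eq_iff_eq_mul, mul_assoc, ← y2, inv_mul_cancel_left]
        _ = s * (s * x * s⁻¹ * x) := by
          rw [cm x xC _ y1]
          calc s * ((s * s)⁻¹ * x * (s * x * s)) = s⁻¹ * x * s * x * s := by group
            _ = _ := by
              have e1 : s⁻¹ * x * s = s * x * s⁻¹ := by
                calc s⁻¹ * x * s = s⁻¹ * (x * (s * s)) * s⁻¹ := by group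
                  _ = _ := by rw [← y2]; group
              rw [e1]
              calc s * x * s⁻¹ * x * s = s * (x * (s⁻¹ * x * s)) := by group
                _ = _ := by rw [e1]))
    exact s2 (mem_centralizer_singleton_iff.2 (mem_centralizer_singleton_iff.1 (w3 (w2 ▸ mem_zpowers x))).symm)
  have sC : ∀ c ∈ centralizer ({x} : Set G), s * c * s⁻¹ ∈ centralizer ({x} : Set G) := fun c hc => by
    have hc' := cent_le_norm x hc
    rw [i2 _ _ (mul_mem s1 hc') (inv_mem s1), i2 _ _ s1 hc', inv_mem_iff]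
    tauto
  have T : TI (centralizer ({x} : Set G)).subtype l s fun c => ⟨s * c * s⁻¹, sC c.1 c.2⟩ := by
    refine ⟨Subtype.val_injective, fun c => rfl, fun c e => s2 (e ▸ c.2), fun c => ?_, fun c d g h1 h2 => ?_⟩
    · rw [← map_mul]
      refine l2 _ ?_
      rw [← Subgroup.coe_pow, mul_pow, Subgroup.coe_mul, Subgroup.coe_pow, Subgroup.coe_pow, conj_pow,
        inv_zp sx (pw c), inv_mul_cancel]
    · have h3 : c.1 ^ m ≠ 1 := fun e => h1 (l2 c e)
      have h4 : g * c.1 ^ m * g⁻¹ = d.1 ^ m := by rw [← conj_pow]; exact congrArg (· ^ m) h2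
      have h5 : g ∈ normalizer (zpowers x : Set G) := by
        rw [← gen_of_prime (hx ▸ hp) (pw c) h3, mem_norm, h4, gen_of_prime (hx ▸ hp) (pw c) h3]
        exact gen_of_prime (hx ▸ hp) (pw d) (by rw [← h4]; simpa using h3)
      by_cases h6 : g ∈ centralizer ({x} : Set G)
      · exact ⟨⟨g, h6⟩, Or.inl rfl⟩
      · exact ⟨⟨s⁻¹ * g, (i2 _ _ (inv_mem s1) h5).2 (by rw [inv_mem_iff]; tauto)⟩, Or.inr (by simp)⟩
  have sc : ∀ c : centralizer ({x} : Set G), s * c * x * (s * c)⁻¹ = x⁻¹ := fun c => by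
    rw [← sx, mul_assoc s, mem_centralizer_singleton_iff.1 c.2]; group
  have hJ : ∀ (c : centralizer ({x} : Set G)) (y : zpowers x), IsConj (s * c) (s * (c * y)) := fun c y => by
    have := conj_dih od (sc c) (inv_mem y.2)
    rwa [← inv_zp (sc c) y.2, inv_mul_cancel_right, mul_assoc] at this
  obtain ⟨d, d1, d2, d3, d4⟩ := formula' T hG (w := ⟨x, xC⟩) (fun u v hu hv => l2 _ (by
    have e1 : ((u * v).1 ^ m) ^ 2 = 1 := by
      rw [← Subgroup.coe_pow, ← Subgroup.coe_pow, ← pow_mul, mul_comm m, pow_mul, mul_pow, pow_two, pow_two, hu, hv]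
      simp
    have e2 := orderOf_dvd_of_mem_zpowers (pw (u * v))
    exact orderOf_eq_one_iff.1 (Nat.eq_one_of_dvd_coprimes (Nat.coprime_two_left.2 od)
      (orderOf_dvd_of_pow_eq_one e1) e2))) (fun e => by
    have e1 : l ⟨x, xC⟩ ^ orderOf x = 1 := by
      rw [← map_pow, show (⟨x, xC⟩ : centralizer ({x} : Set G)) ^ orderOf x = 1 from
        Subtype.ext (pow_orderOf_eq_one x), map_one]
    obtain ⟨k, hk⟩ := od
    rw [hk, pow_succ, pow_mul, e, one_pow, one_mul, l1] at e1
    exact hl (Units.ext e1)) fun c => hJ c ⟨x, mem_zpowers x⟩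
  refine ⟨d, d1, d2, d3, fun t ht => ?_⟩
  obtain ⟨a, a1, a2, a3⟩ := d4 t ht
  set A := univ.filter fun c : centralizer ({x} : Set G) => IsConj t (s * (centralizer ({x} : Set G)).subtype c)
  have A0 : 0 < #A := Nat.pos_of_ne_zero fun e => by
    rw [e] at a3
    have := abs_lt.1 a1
    have g0 : (0 : ℤ) < Nat.card G := by exact_mod_cast Nat.card_pos
    have c0 : (0 : ℤ) < Nat.card (centralizer ({x} : Set G)) := by exact_mod_cast Nat.card_pos
    have : (0 : ℤ) < (d - a) ^ 2 := pow_pos (by omega) 2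
    simp only [Nat.cast_zero, mul_zero, ne_eq, OfNat.ofNat_ne_zero, not_false_eq_true, zero_pow, zero_mul] at a3
    exact (mul_pos (mul_pos c0 g0) this).ne' a3
  have A1 : #A = #(A.image (QuotientGroup.mk' X)) * p := by
    rw [card_eq_sum_card_image (QuotientGroup.mk' X), sum_const_nat]
    intro b hb
    obtain ⟨c, hc, rfl⟩ := mem_image.1 hb
    rw [← hx, ← Nat.card_zpowers, Nat.card_eq_fintype_card, ← card_univ]
    refine (card_bij (fun y _ => c * ⟨y.1, zC y.2⟩) (fun y _ => ?_) (fun y _ y' _ e => ?_) fun c' hc' => ?_).symm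
    · refine mem_filter.2 ⟨mem_filter.2 ⟨mem_univ _, (mem_filter.1 hc).2.trans (hJ c y)⟩, ?_⟩
      rw [map_mul, mul_eq_left]
      exact (QuotientGroup.eq_one_iff _).2 y.2
    · exact Subtype.ext (congrArg Subtype.val (mul_left_cancel e) :)
    · exact ⟨⟨(c⁻¹ * c').1, QuotientGroup.eq (s := X).1 (mem_filter.1 hc').2.symm⟩, mem_univ _, Subtype.ext (by simp)⟩
  obtain ⟨c, hc'⟩ := card_pos.1 A0
  refine ⟨⟨_, (mem_filter.1 hc').2, sc c⟩, a, #(A.image (QuotientGroup.mk' X)), a1, a2, ?_, ?_, ?_⟩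
  · exact Nat.pos_of_mul_pos_right (A1 ▸ A0)
  · rw [← X2, index_eq_card, Nat.card_eq_fintype_card]
    exact card_le_univ _
  · rw [A1, show Nat.card _ = _ from hc] at a3
    have p0 : (p : ℤ) ≠ 0 := by exact_mod_cast hp.ne_zero
    refine mul_left_cancel₀ p0 ?_
    push_cast at a3
    linear_combination a3

theorem dih [IsSimpleGroup G] (hG : ¬ IsMulCommutative G) {x : G} {p m : ℕ} (hp : p.Prime) (p2 : p ≠ 2)
    (hx : orderOf x = p) (hm : m = 1 ∨ m.Prime) (hpm : m ≠ p) (hc : cz x = p * m) (he : ez x = 2) {t : G}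
    (ht : orderOf t = 2) : p * cz t ^ 2 < 4 * m * Nat.card G := by
  obtain ⟨d, d1, -, -, h⟩ := dih_exact hG hp p2 hx hm hpm hc he
  obtain ⟨-, a, k, a1, -, k1, -, e⟩ := h t ht
  have := abs_lt.1 a1
  have g0 : (0 : ℤ) < m * Nat.card G := by
    have : 0 < m := by rcases hm with rfl | hm; exacts [one_pos, hm.pos]
    have := Nat.card_pos (α := G)
    positivity
  have d0 : (0 : ℤ) < d * (d + 1) := by positivity
  have h1 : (d - a : ℤ) ^ 2 < 4 * (d * (d + 1)) := by nlinarith
  have h2 : (p * cz t ^ 2 : ℤ) ≤ p * (cz t * k) ^ 2 := by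
    have : (1 : ℤ) ≤ k := by exact_mod_cast k1
    gcongr
    nlinarith [Int.natCast_nonneg (cz t)]
  have h3 : (p * cz t ^ 2 : ℤ) * (d * (d + 1)) < (4 * m * Nat.card G) * (d * (d + 1)) := by nlinarith
  exact_mod_cast lt_of_mul_lt_mul_right h3 d0.le

/-- F2 -/
theorem f2 [IsSimpleGroup G] (hG : ¬ IsMulCommutative G) {x : G} (hp : (orderOf x).Prime) (hc : cz x = orderOf x)
    (he : ez x = 2) : (∀ s t : G, orderOf s = 2 → orderOf t = 2 → IsConj s t) ∧
      ∀ t : G, orderOf t = 2 → orderOf x * cz t ^ 2 < 4 * Nat.card G := by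
  have od := (inv_ex hp hc (by rw [he])).1
  have p2 : orderOf x ≠ 2 := fun e => by rw [e] at od; exact absurd od (by decide)
  refine ⟨fun s t hs ht => ?_, fun t ht => by
    simpa using dih hG hp p2 rfl (Or.inl rfl) hp.one_lt.ne (by rw [hc, mul_one]) he ht⟩
  obtain ⟨d, -, -, -, h⟩ := dih_exact hG hp p2 rfl (Or.inl rfl) hp.one_lt.ne (by rw [hc, mul_one]) he
  obtain ⟨⟨u, u1, u2⟩, -⟩ := h s hs
  obtain ⟨⟨v, v1, v2⟩, -⟩ := h t ht
  have : v * u⁻¹ ∈ zpowers x := by
    rw [← cent_eq_zp hc, mem_centralizer_singleton_iff]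
    have e1 : u⁻¹ * x * u = x⁻¹ := by
      have := congrArg (·⁻¹) u2
      simp only [_root_.mul_inv_rev, inv_inv] at this
      calc u⁻¹ * x * u = u⁻¹ * (u * (x⁻¹ * u⁻¹)) * u := by rw [this]
        _ = _ := by group
    calc v * u⁻¹ * x = v * (u⁻¹ * x * u) * v⁻¹ * (v * u⁻¹) := by group
      _ = (v * x * v⁻¹)⁻¹ * (v * u⁻¹) := by rw [e1]; group
      _ = _ := by rw [v2, inv_inv]
  have := conj_dih od u2 this
  rw [inv_mul_cancel_right] at this
  exact u1.trans (this.trans v1.symm)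

/-- F3 -/
theorem f3 [IsSimpleGroup G] (hG : ¬ IsMulCommutative G) {x : G} (hx : orderOf x = 3) (hc : cz x = 6) {t : G}
    (ht : orderOf t = 2) : 3 * cz t ^ 2 < 8 * Nat.card G := by
  have h1 := mz_mul_ez x
  rw [hx, Nat.totient_prime Nat.prime_three] at h1
  have h2 : ez x ∣ 2 := Dvd.intro_left _ h1
  have h3 : ez x ≠ 1 := (cap_elt hG (x := x) (by rintro rfl; simp at hx) Nat.prime_three
    (fun r hr h => (Nat.prime_dvd_prime_iff_eq hr Nat.prime_three).1 (hx ▸ h)) (by rw [hx, hc]; decide)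
    (fun h => by have := Nat.le_of_dvd two_pos (h.trans h2); omega)).2.1
  exact dih hG Nat.prime_three (by decide) hx (Or.inr Nat.prime_two) (by decide) hc
    (((Nat.dvd_prime Nat.prime_two).1 h2).resolve_left h3) ht

end Cfsg.Agent.L0.KK
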